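import Cfsg.Agent.H188.RC.ThmA
import Cfsg.Agent.H520.RC.SpId
import Cfsg.Agent.H380.RC.Rules

/-!
# S3510, row F, even characteristic: a reflection among the members of the cover (helper64)

`a` nonsingular, char `F = 2`. The stabiliser `C` of `a` in `E Q` maps onto the symplectic group of
`a^⊥ / a`, realised on the complement `W0 Q a b` (`b` with `polar Q a b = 1`), with central kernel.
-/

set_option autoImplicit false
open Cfsg

namespace Cfsg.Agent.H64.RC.Refl

open QuadraticMap MulAction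
open Cfsg.Agent.LieClassical.OrthCore Cfsg.Agent.LieClassical.OrthTrans
open Cfsg.Agent.LieClassical.OrthSimple Cfsg.Agent.ClassicalGeometry.OrthSemi
open Cfsg.Agent.ClassicalGeometry.OrthAut1 Cfsg.Agent.H106.RC

section lin

variable {F V : Type*} [Field F] [AddCommGroup V] [Module F V] {Q : QuadraticForm F V} {a b : V}

/-- the stabiliser of `a` in `O Q` -/
def stO (Q : QuadraticForm F V) (a : V) : Subgroup (V ≃ₗ[F] V) where
  carrier := {g | g ∈ O Q ∧ g a = a}
  mul_mem' := by
    rintro g h ⟨hg, hga⟩ ⟨hh, hha⟩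
    exact ⟨(O Q).mul_mem hg hh, by show g (h a) = a; rw [hha, hga]⟩
  one_mem' := ⟨(O Q).one_mem, rfl⟩
  inv_mem' := by
    rintro g ⟨hg, hga⟩
    refine ⟨(O Q).inv_mem hg, ?_⟩
    show g.symm a = a
    rw [LinearEquiv.symm_apply_eq, hga]

/-- a complement of `a` in its orthogonal space -/
def W0 (Q : QuadraticForm F V) (a b : V) : Submodule F V :=
  LinearMap.ker (polarBilin Q a) ⊓ LinearMap.ker (polarBilin Q b)

theorem mem_W0 {v : V} : v ∈ W0 Q a b ↔ polar Q a v = 0 ∧ polar Q b v = 0 := Iff.rfl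

/-- the form on `W0` -/
abbrev B0 (Q : QuadraticForm F V) (a b : V) : LinearMap.BilinForm F (W0 Q a b) :=
  LinearMap.BilinForm.restrict (polarBilin Q) (W0 Q a b)

theorem B0_apply (v w : W0 Q a b) : B0 Q a b v w = polar Q (v : V) w := rfl

/-- the hypotheses -/
structure Pr (Q : QuadraticForm F V) (a b : V) : Prop where
  two : (2 : F) = 0
  nd : Nondeg Q
  qa : Q a ≠ 0
  ab : polar Q a b = 1

/-- the projection -/
def pr (Q : QuadraticForm F V) (a b v : V) : V := v - polar Q b v • a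

theorem Pr.self (h : Pr Q a b) (v : V) : polar Q v v = 0 := by rw [polar_self', h.two, zero_mul]

theorem Pr.ba (h : Pr Q a b) : polar Q b a = 1 := by rw [polar_comm]; exact h.ab

theorem Pr.add_self (h : Pr Q a b) (x : F) : x + x = 0 := by rw [← two_mul, h.two, zero_mul]

theorem pr_mem (h : Pr Q a b) {v : V} (hv : polar Q a v = 0) : pr Q a b v ∈ W0 Q a b := by
  rw [mem_W0, pr, polar_sub_right, polar_smul_right, polar_sub_right, polar_smul_right, h.self, h.ba, hv]
  simp

theorem polar_pr (h : Pr Q a b) {v w : V} (hv : polar Q a v = 0) (hw : polar Q a w = 0) :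
    polar Q (pr Q a b v) (pr Q a b w) = polar Q v w := by
  rw [pr, pr, polar_sub_left, polar_sub_right, polar_sub_right, polar_smul_left, polar_smul_right, polar_smul_left,
    polar_smul_right, h.self, hw, polar_comm Q v a, hv]
  simp

theorem pr_of_mem {v : V} (hv : v ∈ W0 Q a b) : pr Q a b v = v := by
  rw [pr, (mem_W0.1 hv).2, zero_smul, sub_zero]

theorem st_polar {g : V ≃ₗ[F] V} (hg : g ∈ stO Q a) (v : V) : polar Q a (g v) = polar Q a v := by
  conv_lhs => rw [← hg.2]
  exact polar_map hg.1 a v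

theorem pr_pr (h : Pr Q a b) {g : V ≃ₗ[F] V} (hg : g ∈ stO Q a) (v : V) :
    pr Q a b (g (pr Q a b v)) = pr Q a b (g v) := by
  rw [pr, pr, pr, map_sub, map_smul, hg.2, polar_sub_right, polar_smul_right, h.ba, smul_eq_mul, mul_one, sub_smul]
  abel

/-- the action on `W0` -/
def lin (h : Pr Q a b) {g : V ≃ₗ[F] V} (hg : g ∈ stO Q a) : W0 Q a b →ₗ[F] W0 Q a b where
  toFun w := ⟨pr Q a b (g w), pr_mem h (by rw [st_polar hg]; exact (mem_W0.1 w.2).1)⟩
  map_add' v w := by
    apply Subtype.ext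
    show pr Q a b (g ((v : V) + w)) = pr Q a b (g v) + pr Q a b (g w)
    rw [pr, pr, pr, map_add, polar_add_right, add_smul]
    abel
  map_smul' c w := by
    apply Subtype.ext
    show pr Q a b (g (c • (w : V))) = c • pr Q a b (g w)
    rw [pr, pr, map_smul, polar_smul_right, smul_sub, smul_smul, smul_eq_mul]

theorem lin_apply (h : Pr Q a b) {g : V ≃ₗ[F] V} (hg : g ∈ stO Q a) (w : W0 Q a b) :
    ((lin h hg w : W0 Q a b) : V) = pr Q a b (g w) := rfl

theorem lin_lin (h : Pr Q a b) {g k : V ≃ₗ[F] V} (hg : g ∈ stO Q a) (hk : k ∈ stO Q a) (w : W0 Q a b) :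
    lin h hg (lin h hk w) = lin h ((stO Q a).mul_mem hg hk) w := by
  apply Subtype.ext
  rw [lin_apply, lin_apply, pr_pr h hg]
  rfl

/-- the homomorphism onto the symplectic group -/
def phi (h : Pr Q a b) : ↥(stO Q a) →* H520.RC.Sp (B0 Q a b) where
  toFun g := ⟨{ lin h g.2 with
      invFun := fun w => lin h (g⁻¹).2 w
      left_inv := fun w => by
        show lin h (g⁻¹).2 (lin h g.2 w) = w
        apply Subtype.ext
        rw [lin_apply, lin_apply, pr_pr h (g⁻¹).2]
        show pr Q a b (g.1.symm (g.1 w)) = w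
        rw [LinearEquiv.symm_apply_apply, pr_of_mem w.2]
      right_inv := fun w => by
        show lin h g.2 (lin h (g⁻¹).2 w) = w
        apply Subtype.ext
        rw [lin_apply, lin_apply, pr_pr h g.2]
        show pr Q a b (g.1 (g.1.symm w)) = w
        rw [LinearEquiv.apply_symm_apply, pr_of_mem w.2] }, by
    intro v w
    show polar Q (pr Q a b (g.1 v)) (pr Q a b (g.1 w)) = polar Q (v : V) w
    rw [polar_pr h, polar_map g.2.1]
    · rw [st_polar g.2]; exact (mem_W0.1 v.2).1
    · rw [st_polar g.2]; exact (mem_W0.1 w.2).1⟩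
  map_one' := by
    apply Subtype.ext
    apply LinearEquiv.ext
    intro w
    apply Subtype.ext
    exact pr_of_mem w.2
  map_mul' g k := by
    apply Subtype.ext
    apply LinearEquiv.ext
    intro w
    exact (lin_lin h g.2 k.2 w).symm

theorem phi_apply (h : Pr Q a b) (g : ↥(stO Q a)) (w : W0 Q a b) :
    (((phi h g).1 w : W0 Q a b) : V) = pr Q a b (g.1 w) := rfl

/-- decomposition of a vector -/
theorem dec_mem (h : Pr Q a b) (v : V) : v - polar Q b v • a - polar Q a v • b ∈ W0 Q a b := by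
  rw [mem_W0, polar_sub_right, polar_sub_right, polar_smul_right, polar_smul_right, polar_sub_right, polar_sub_right,
    polar_smul_right, polar_smul_right, h.self, h.self, h.ab, h.ba]
  simp

theorem nalt (h : Pr Q a b) : H520.RC.NAlt (B0 Q a b) where
  alt x := h.self _
  nd x hx := by
    apply Subtype.ext
    apply h.nd
    intro v
    have h1 : v = (v - polar Q b v • a - polar Q a v • b) + polar Q b v • a + polar Q a v • b := by abel
    have h2 := hx ⟨_, dec_mem h v⟩
    rw [B0_apply] at h2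
    rw [h1, polar_add_right, polar_add_right, h2, polar_smul_right, polar_smul_right, polar_comm Q _ a,
      polar_comm Q _ b, (mem_W0.1 x.2).1, (mem_W0.1 x.2).2]
    simp

/-- the kernel of `phi` -/
theorem of_phi_eq_one (h : Pr Q a b) {g : ↥(stO Q a)} (hg : phi h g = 1) :
    ∃ c : F, (c = 0 ∨ c * Q a = 1) ∧ ∀ v, g.1 v = v + (c * polar Q a v) • a := by
  have h1 : ∀ w ∈ W0 Q a b, g.1 w = w := by
    intro w hw
    have h2 := congrArg (fun t : H520.RC.Sp (B0 Q a b) => ((t.1 ⟨w, hw⟩ : W0 Q a b) : V)) hg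
    change pr Q a b (g.1 w) = w at h2
    rw [pr, sub_eq_iff_eq_add] at h2
    have h3 := mem_O.1 g.2.1 w
    rw [h2, Q_add, polar_smul_right, polar_comm Q w a, (mem_W0.1 hw).1, QuadraticMap.map_smul, smul_zero, add_zero,
      add_eq_left, smul_eq_mul, mul_eq_zero, mul_self_eq_zero] at h3
    rw [h2, h3.resolve_right h.qa, zero_smul, add_zero]
  -- the image of `b`
  have h2 : g.1 b - b = polar Q (g.1 b - b) b • a := by
    rw [← sub_eq_zero]
    apply h.nd
    intro v
    have e1 : v = (v - polar Q b v • a - polar Q a v • b) + polar Q b v • a + polar Q a v • b := by abel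
    have e2 : polar Q (g.1 b - b) (v - polar Q b v • a - polar Q a v • b) = 0 := by
      have h3 := h1 _ (dec_mem h v)
      rw [polar_sub_left]
      nth_rewrite 1 [← h3]
      rw [polar_map g.2.1, sub_self]
    have e3 : polar Q (g.1 b - b) a = 0 := by
      have h4 := polar_map g.2.1 b a
      rw [g.2.2] at h4
      rw [polar_sub_left, h4, sub_self]
    have e4 : polar Q (g.1 b - b) v = polar Q a v * polar Q (g.1 b - b) b := by
      conv_lhs => rw [e1]
      rw [polar_add_right, polar_add_right, e2, polar_smul_right, e3, polar_smul_right]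
      simp
    rw [polar_sub_left, e4, polar_smul_left, smul_eq_mul, mul_comm, sub_self]
  set c := polar Q (g.1 b - b) b with hc
  have h3 : g.1 b = b + c • a := by rw [← h2]; abel
  refine ⟨c, ?_, ?_⟩
  · have h4 := mem_O.1 g.2.1 b
    rw [h3, Q_add, QuadraticMap.map_smul, polar_smul_right, h.ba, smul_eq_mul, smul_eq_mul, mul_one, add_assoc,
      add_eq_left] at h4
    have h5 : c * (c * Q a + 1) = 0 := by linear_combination h4
    rcases mul_eq_zero.1 h5 with h6 | h6
    · exact Or.inl h6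
    · right
      linear_combination h6 - h.add_self 1
  · intro v
    have e1 : v = (v - polar Q b v • a - polar Q a v • b) + polar Q b v • a + polar Q a v • b := by abel
    conv_lhs => rw [e1]
    rw [map_add, map_add, h1 _ (dec_mem h v), map_smul, map_smul, g.2.2, h3]
    module

/-- the elements in the kernel of `phi` are central -/
theorem comm_of_form {g k : V ≃ₗ[F] V} {c : F} (hg : ∀ v, g v = v + (c * polar Q a v) • a) (hk : k ∈ stO Q a) :
    g * k = k * g := by
  ext v
  show g (k v) = k (g v)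
  rw [hg, hg, map_add, map_smul, hk.2, st_polar hk]

/-- the stabiliser of `a` in `E Q` -/
def fixE (Q : QuadraticForm F V) (a : V) : Subgroup ↥(E Q) := (stO Q a).comap (E Q).subtype

theorem mem_fixE {t : ↥(E Q)} : t ∈ fixE Q a ↔ (t : V ≃ₗ[F] V) a = a := by
  constructor
  · intro h
    exact h.2
  · intro h
    exact ⟨E_le_O t.2, h⟩

/-- the inclusion -/
def inc (Q : QuadraticForm F V) (a : V) : ↥(fixE Q a) →* ↥(stO Q a) where
  toFun t := ⟨t.1.1, t.2⟩
  map_one' := rfl
  map_mul' _ _ := rfl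

/-- the homomorphism of the stabiliser in `E Q` onto the symplectic group -/
def psi (h : Pr Q a b) : ↥(fixE Q a) →* H520.RC.Sp (B0 Q a b) := (phi h).comp (inc Q a)

theorem psi_apply (h : Pr Q a b) (g : ↥(fixE Q a)) (w : W0 Q a b) :
    (((psi h g).1 w : W0 Q a b) : V) = pr Q a b (g.1.1 w) := rfl

/-- Siegel elements in the stabiliser -/
theorem sg_mem_fixE {u w : V} (hu : Q u = 0) (hw : polar Q u w = 0) (hau : polar Q a u = 0)
    (haw : polar Q a w = 0) : AutOrth.SemiSim.sg Q u w hu hw ∈ fixE Q a := by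
  rw [mem_fixE, AutOrth.SemiSim.sg_apply, polar_comm Q u a, polar_comm Q w a, hau, haw]
  simp

theorem exists_sq [Finite F] (h2 : (2 : F) = 0) (x : F) : ∃ y : F, y * y = x := by
  have h3 : CharP F 2 := (CharP.charP_iff_prime_eq_zero Nat.prime_two).2 (by exact_mod_cast h2)
  obtain ⟨y, hy⟩ := FiniteField.isSquare_of_char_two (ringChar.eq F 2) x
  exact ⟨y, hy.symm⟩

/-- singular vectors in the coset of `a` -/
theorem exists_sing [Finite F] (h : Pr Q a b) {w : V} (hw : polar Q a w = 0) : ∃ m : F, Q (w + m • a) = 0 := by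
  obtain ⟨m, hm⟩ := exists_sq h.two (Q w * (Q a)⁻¹)
  refine ⟨m, ?_⟩
  rw [Q_add, QuadraticMap.map_smul, polar_smul_right, polar_comm Q w a, hw, hm, smul_eq_mul, mul_assoc,
    inv_mul_cancel₀ h.qa, mul_one, h.add_self, smul_zero, add_zero]

/-- `psi` is surjective -/
theorem psi_surjective [Finite F] [FiniteDimensional F V] (h : Pr Q a b) : Function.Surjective (psi h) := by
  rw [← MonoidHom.range_eq_top]
  apply H520.RC.gen_tv (nalt h)
  intro w c
  obtain ⟨m, hm⟩ := exists_sing h (mem_W0.1 w.2).1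
  obtain ⟨l, hl⟩ := exists_sq h.two (c * (Q a)⁻¹)
  have h1 : polar Q ((w : V) + m • a) (l • a) = 0 := by
    rw [polar_smul_right, polar_add_left, polar_smul_left, h.self, polar_comm Q _ a, (mem_W0.1 w.2).1]
    simp
  have h2 : polar Q a ((w : V) + m • a) = 0 := by
    rw [polar_add_right, polar_smul_right, h.self, (mem_W0.1 w.2).1]
    simp
  have h3 : polar Q a (l • a) = 0 := by rw [polar_smul_right, h.self, smul_zero]
  refine ⟨⟨AutOrth.SemiSim.sg Q _ _ hm h1, sg_mem_fixE hm h1 h2 h3⟩, ?_⟩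
  apply Subtype.ext
  apply LinearEquiv.ext
  intro v
  apply Subtype.ext
  rw [psi_apply]
  show pr Q a b ((AutOrth.SemiSim.sg Q _ _ hm h1 : V ≃ₗ[F] V) (v : V)) = _
  rw [H520.RC.tv_apply, AutOrth.SemiSim.sg_apply]
  have hv := mem_W0.1 v.2
  have hw := mem_W0.1 w.2
  have e1 : polar Q ((w : V) + m • a) (v : V) = polar Q (v : V) w := by
    rw [polar_add_left, polar_smul_left, hv.1, smul_zero, add_zero, polar_comm]
  have e2 : polar Q (l • a) (v : V) = 0 := by rw [polar_smul_left, hv.1, smul_zero]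
  rw [e1, e2, pr]
  simp only [polar_add_right, polar_sub_right, polar_smul_right, hv.2, hw.2, h.ba, QuadraticMap.map_smul, smul_eq_mul]
  rw [hl]
  show _ = (v : V) + (c * B0 Q a b v w) • (w : V)
  rw [B0_apply]
  have e3 : c * (Q a)⁻¹ * Q a = c := by rw [mul_assoc, inv_mul_cancel₀ h.qa, mul_one]
  rw [e3]
  have e4 : -(c * polar Q (v : V) w) = c * polar Q (v : V) w := by
    linear_combination -h.add_self (c * polar Q (v : V) w)
  have e5 : (v : V) + (c * polar Q (v : V) w) • (w : V) = (v : V) + (-(c * polar Q (v : V) w)) • (w : V) := by rw [e4]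
  rw [e5]
  module

/-- elements of the centre of the symplectic group are trivial -/
theorem eq_one_of_center [FiniteDimensional F V] (h : Pr Q a b) {t : H520.RC.Sp (B0 Q a b)}
    (ht : t ∈ Subgroup.center (H520.RC.Sp (B0 Q a b))) : t = 1 := by
  obtain ⟨c, hc⟩ := (H520.RC.mem_center_Sp (nalt h)).1 ht
  apply Subtype.ext
  apply LinearEquiv.ext
  intro v
  show t.1 v = v
  by_cases hv : v = 0
  · rw [hv, map_zero]
  obtain ⟨w, hw⟩ := (nalt h).exists_ne hv
  have h1 : B0 Q a b (t.1 v) (t.1 w) = B0 Q a b v w := t.2 v w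
  rw [hc, hc, map_smul, map_smul, LinearMap.smul_apply, smul_eq_mul, smul_eq_mul] at h1
  have h2 : (c - 1) * (c - 1) = 0 := by
    have h3 : (c * c - 1) * B0 Q a b v w = 0 := by linear_combination h1
    have h4 := (mul_eq_zero.1 h3).resolve_right hw
    linear_combination h4 - c * h.two + h.two
  have h3 : c = 1 := sub_eq_zero.1 (mul_self_eq_zero.1 h2)
  rw [hc, h3, one_smul]

theorem psi_center [FiniteDimensional F V] (h : Pr Q a b) {t : ↥(fixE Q a)}
    (ht : psi h t ∈ Subgroup.center (H520.RC.Sp (B0 Q a b))) (s : ↥(fixE Q a)) : s * t = t * s := by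
  obtain ⟨c, -, hc⟩ := of_phi_eq_one h (g := inc Q a t) (eq_one_of_center h ht)
  apply Subtype.ext
  apply Subtype.ext
  exact (comm_of_form (g := t.1.1) hc s.2).symm

/-- the dimension of `W0` -/
theorem finrank_W0 [FiniteDimensional F V] : Module.finrank F V ≤ Module.finrank F (W0 Q a b) + 2 := by
  have h3 : ∀ e : V, Module.finrank F V ≤ Module.finrank F (LinearMap.ker (polarBilin Q e)) + 1 := by
    intro e
    have := LinearMap.finrank_range_add_finrank_ker (polarBilin Q e)
    have h4 : Module.finrank F (LinearMap.range (polarBilin Q e)) ≤ 1 := by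
      calc Module.finrank F (LinearMap.range (polarBilin Q e)) ≤ Module.finrank F F := Submodule.finrank_le _
        _ = 1 := Module.finrank_self F
    omega
  have h6 := Submodule.finrank_sup_add_finrank_inf_eq (LinearMap.ker (polarBilin Q a)) (LinearMap.ker (polarBilin Q b))
  have h7 := Submodule.finrank_le (LinearMap.ker (polarBilin Q a) ⊔ LinearMap.ker (polarBilin Q b))
  have h8 := h3 a
  have h9 := h3 b
  show _ ≤ Module.finrank F ↥(LinearMap.ker (polarBilin Q a) ⊓ LinearMap.ker (polarBilin Q b)) + 2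
  omega

/-- the vectors used below -/
theorem exists_vec [Finite F] [FiniteDimensional F V] (h : Pr Q a b) (hd : 7 ≤ Module.finrank F V) :
    ∃ e g f f' b' : V, Q e = 0 ∧ Q g = 0 ∧ polar Q e g = 0 ∧ e ≠ 0 ∧ (∀ c : F, g ≠ c • e) ∧
      polar Q a e = 0 ∧ polar Q a g = 0 ∧ polar Q a f = 0 ∧ polar Q a f' = 0 ∧
      polar Q e f = 0 ∧ polar Q e f' = 0 ∧ polar Q g f = 0 ∧ polar Q g f' = 0 ∧ polar Q f' f = 1 ∧
      polar Q e b' = 0 ∧ polar Q g b' = 0 ∧ polar Q a b' = 1 := by
  obtain ⟨f, hf0, hf⟩ := exists_perp_ne (Q := Q) ![a, b] (by omega)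
  have haf : polar Q a f = 0 := hf 0
  have hbf : polar Q b f = 0 := hf 1
  obtain ⟨f1, hf1⟩ := h.nd.exists_polar_eq hf0 1
  obtain ⟨e0, he00, he0⟩ := exists_perp_ne (Q := Q) ![a, b, f, f1 - polar Q a f1 • b] (by omega)
  have hae : polar Q a e0 = 0 := he0 0
  have hbe : polar Q b e0 = 0 := he0 1
  have hfe : polar Q f e0 = 0 := he0 2
  have hf'e : polar Q (f1 - polar Q a f1 • b) e0 = 0 := he0 3
  obtain ⟨e1', he1'⟩ := h.nd.exists_polar_eq he00 1
  obtain ⟨g0, hg00, hg0⟩ := exists_perp_ne (Q := Q) ![a, b, f, f1 - polar Q a f1 • b, e0, e1'] (by omega)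
  have hag : polar Q a g0 = 0 := hg0 0
  have hbg : polar Q b g0 = 0 := hg0 1
  have hfg : polar Q f g0 = 0 := hg0 2
  have hf'g : polar Q (f1 - polar Q a f1 • b) g0 = 0 := hg0 3
  have heg : polar Q e0 g0 = 0 := hg0 4
  have he1g : polar Q e1' g0 = 0 := hg0 5
  obtain ⟨g1', hg1'⟩ := h.nd.exists_polar_eq hg00 1
  set f' := f1 - polar Q a f1 • b with hf'
  have haf' : polar Q a f' = 0 := by rw [hf', polar_sub_right, polar_smul_right, h.ab]; simp
  have hf'f : polar Q f' f = 1 := by
    rw [hf', polar_sub_left, polar_smul_left, hbf, polar_comm Q f1 f, hf1]; simp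
  -- dual vectors orthogonal to `a`
  set e1 := e1' - polar Q a e1' • b with he1
  have hae1 : polar Q a e1 = 0 := by rw [he1, polar_sub_right, polar_smul_right, h.ab]; simp
  have hee1 : polar Q e0 e1 = 1 := by
    rw [he1, polar_sub_right, polar_smul_right, polar_comm Q e0 b, hbe, he1']; simp
  have hge1 : polar Q g0 e1 = 0 := by
    rw [he1, polar_sub_right, polar_smul_right, polar_comm Q g0 b, hbg, polar_comm Q g0 e1', he1g]; simp
  set g1 := g1' - polar Q a g1' • b - polar Q e0 g1' • e1 with hg1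
  have hag1 : polar Q a g1 = 0 := by
    rw [hg1, polar_sub_right, polar_sub_right, polar_smul_right, polar_smul_right, h.ab, hae1]; simp
  have heg1 : polar Q e0 g1 = 0 := by
    rw [hg1, polar_sub_right, polar_sub_right, polar_smul_right, polar_smul_right, polar_comm Q e0 b, hbe, hee1]
    simp
  have hgg1 : polar Q g0 g1 = 1 := by
    rw [hg1, polar_sub_right, polar_sub_right, polar_smul_right, polar_smul_right, polar_comm Q g0 b, hbg, hge1,
      hg1']
    simp
  obtain ⟨m, hm⟩ := exists_sing h hae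
  obtain ⟨n, hn⟩ := exists_sing h hag
  have hea : polar Q e0 a = 0 := by rw [polar_comm]; exact hae
  have hga : polar Q g0 a = 0 := by rw [polar_comm]; exact hag
  have heb : polar Q e0 b = 0 := by rw [polar_comm]; exact hbe
  have hgb : polar Q g0 b = 0 := by rw [polar_comm]; exact hbg
  have hef : polar Q e0 f = 0 := by rw [polar_comm]; exact hfe
  have hgf : polar Q g0 f = 0 := by rw [polar_comm]; exact hfg
  have hef' : polar Q e0 f' = 0 := by rw [polar_comm]; exact hf'e
  have hgf' : polar Q g0 f' = 0 := by rw [polar_comm]; exact hf'g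
  refine ⟨e0 + m • a, g0 + n • a, f, f', b - m • e1 - n • g1, hm, hn, ?_, ?_, ?_, ?_, ?_, haf, haf', ?_, ?_, ?_, ?_,
    hf'f, ?_, ?_, ?_⟩
  · simp only [polar_add_left, polar_add_right, polar_smul_left, polar_smul_right, heg, hea, hag, h.self, smul_zero,
      add_zero]
  · intro h0
    have h1 : polar Q b (e0 + m • a) = 0 := by rw [h0, polar_zero_right]
    rw [polar_add_right, polar_smul_right, hbe, h.ba, zero_add, smul_eq_mul, mul_one] at h1
    rw [h1, zero_smul, add_zero] at h0
    exact he00 h0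
  · intro c h0
    have h1 : polar Q b (g0 + n • a) = polar Q b (c • (e0 + m • a)) := by rw [h0]
    rw [polar_smul_right, polar_add_right, polar_add_right, polar_smul_right, polar_smul_right, hbe, hbg, h.ba,
      zero_add, zero_add, smul_eq_mul, smul_eq_mul, smul_eq_mul, mul_one, mul_one] at h1
    rw [h1, smul_add, smul_smul] at h0
    have h2 : g0 = c • e0 := add_right_cancel h0
    have h3 : polar Q g0 e1 = polar Q (c • e0) e1 := by rw [← h2]
    rw [hge1, polar_smul_left, hee1, smul_eq_mul, mul_one] at h3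
    rw [← h3, zero_smul] at h2
    exact hg00 h2
  · rw [polar_add_right, polar_smul_right, hae, h.self]; simp
  · rw [polar_add_right, polar_smul_right, hag, h.self]; simp
  · rw [polar_add_left, polar_smul_left, hef, haf]; simp
  · rw [polar_add_left, polar_smul_left, hef', haf']; simp
  · rw [polar_add_left, polar_smul_left, hgf, haf]; simp
  · rw [polar_add_left, polar_smul_left, hgf', haf']; simp
  · simp only [polar_add_left, polar_sub_right, polar_smul_left, polar_smul_right, heb, h.ab, hee1, hae1, heg1, hag1,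
      smul_eq_mul]
    ring
  · simp only [polar_add_left, polar_sub_right, polar_smul_left, polar_smul_right, hgb, h.ab, hge1, hae1, hgg1, hag1,
      smul_eq_mul]
    ring
  · simp only [polar_sub_right, polar_smul_right, h.ab, hae1, hag1, smul_eq_mul]
    ring

end lin

section abs

open scoped commutatorElement

/-- central extensions of perfect groups -/
theorem perf_of {A S : Type*} [Group A] [Group S] {f : A →* S} (hf : Function.Surjective f)
    (hk : ∀ x, f x = 1 → ∀ y, y * x = x * y) (hS : commutator S = ⊤) :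
    (commutator A).map f = ⊤ ∧ ⁅commutator A, commutator A⁆ = commutator A := by
  have h1 : (commutator A).map f = ⊤ := by
    rw [commutator_def, Subgroup.map_commutator, ← MonoidHom.range_eq_map, MonoidHom.range_eq_top.2 hf,
      ← commutator_def, hS]
  refine ⟨h1, le_antisymm (Subgroup.commutator_le_left _ _) ?_⟩
  conv_lhs => rw [commutator_def]
  rw [Subgroup.commutator_le]
  intro x _ y _
  have h2 : ∀ x : A, ∃ d ∈ commutator A, ∀ z, z * (x * d⁻¹) = (x * d⁻¹) * z := by
    intro x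
    have h3 : f x ∈ (commutator A).map f := by rw [h1]; trivial
    obtain ⟨d, hd, hdx⟩ := h3
    refine ⟨d, hd, hk _ ?_⟩
    rw [map_mul, map_inv, hdx, mul_inv_cancel]
  obtain ⟨d, hd, hdc⟩ := h2 x
  obtain ⟨e, he, hec⟩ := h2 y
  have h3 : ⁅x, y⁆ = ⁅d, e⁆ := by
    set z := x * d⁻¹ with hz
    set w := y * e⁻¹ with hw
    have hx : x = z * d := by rw [hz]; group
    have hy : y = w * e := by rw [hw]; group
    have hzc : ∀ u, Commute u z := hdc
    have hwc : ∀ u, Commute u w := hec
    rw [hx, hy, commutatorElement_def, commutatorElement_def]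
    have e1 : z * d * (w * e) * (z * d)⁻¹ * (w * e)⁻¹ = z * (d * w) * e * d⁻¹ * z⁻¹ * e⁻¹ * w⁻¹ := by group
    rw [e1, (hwc d).eq]
    have e2 : z * (w * d) * e * d⁻¹ * z⁻¹ * e⁻¹ * w⁻¹ = z * (w * d * e * d⁻¹) * z⁻¹ * e⁻¹ * w⁻¹ := by group
    rw [e2, ← (hzc _).eq]
    have e3 : w * d * e * d⁻¹ * z * z⁻¹ * e⁻¹ * w⁻¹ = w * (d * e * d⁻¹ * e⁻¹) * w⁻¹ := by group
    rw [e3, ← (hwc _).eq, mul_inv_cancel_right]
  rw [h3]
  exact Subgroup.commutator_mem_commutator hd he

/-- a subgroup stable under conjugation by an element of finite order is normalised -/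
theorem mem_normalizer_of_pow {G : Type*} [Group G] {x : G} {n : ℕ} (hn : 0 < n) (hx : x ^ n = 1) {K : Subgroup G}
    (h : ∀ m ∈ K, x * m * x⁻¹ ∈ K) : x ∈ Subgroup.normalizer (K : Set G) := by
  rw [Subgroup.mem_normalizer_iff]
  intro m
  refine ⟨fun hm => h m hm, fun hm => ?_⟩
  have h4 : ∀ n : ℕ, x ^ n * (x * m * x⁻¹) * (x ^ n)⁻¹ ∈ K := by
    intro n
    induction n with
    | zero => simpa using hm
    | succ n ih =>
      have h5 := h _ ih
      have h6 : x * (x ^ n * (x * m * x⁻¹) * (x ^ n)⁻¹) * x⁻¹ = x ^ (n + 1) * (x * m * x⁻¹) * (x ^ (n + 1))⁻¹ := by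
        rw [pow_succ']
        group
      rwa [h6] at h5
  obtain ⟨k, rfl⟩ : ∃ k, n = k + 1 := ⟨n - 1, by omega⟩
  have h4 := h4 k
  have h5 : x ^ k = x⁻¹ := by
    rw [eq_inv_iff_mul_eq_one, ← pow_succ]
    exact hx
  rw [h5] at h4
  have h6 : x⁻¹ * (x * m * x⁻¹) * x⁻¹⁻¹ = m := by group
  rwa [h6] at h4

/-- the M-rule for the derived subgroup of a group `A` embedded in `G` with a surjection onto `S₀` with central kernel;
`S₀ / Z(S₀)` classical simple -/
theorem mrule_abs {G A S₀ Ω ι : Type} [Group G] [Finite G] [Group A] [Group S₀] [Finite S₀] [MulAction G Ω] [Finite ι]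
    {N : Subgroup G} (hIH : IH (Nat.card N)) {E : A →* G} (hE : Function.Injective E) {f : A →* S₀}
    (hf : Function.Surjective f) (hk : ∀ x, f x ∈ Subgroup.center S₀ → ∀ y, y * x = x * y)
    (hS : commutator S₀ = ⊤) (h1 : IsSimpleGroup (S₀ ⧸ Subgroup.center S₀))
    (h2 : ¬ IsMulCommutative (S₀ ⧸ Subgroup.center S₀)) (h3 : Cl (S₀ ⧸ Subgroup.center S₀))
    (h4 : ¬ Exc (S₀ ⧸ Subgroup.center S₀)) (hMN : (commutator A).map E ≤ N) (hne : (commutator A).map E ≠ N)
    {x : ι → G} {r : ι → ℕ} (hx : PF x r) (hcov : Cov Ω x)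
    (hnorm : ∀ i, ∀ t : A, ∃ t', x i * E t * (x i)⁻¹ = E t') (ω : Ω) :
    (∀ t ∈ commutator A, E t • ω = ω) ∨ ∃ j, (∀ t ∈ commutator A, x j * E t = E t * x j) ∧ x j • ω = ω := by
  obtain ⟨hmap, hperf⟩ := perf_of hf (fun x hx => hk x (by rw [hx]; exact Subgroup.one_mem _)) hS
  set M : Subgroup G := (commutator A).map E with hM
  have hMp : ⁅M, M⁆ = M := by rw [hM, ← Subgroup.map_commutator, hperf]
  let e : ↥(commutator A) ≃* ↥M := (commutator A).equivMapOfInjective E hE
  let π : ↥M →* S₀ ⧸ Subgroup.center S₀ :=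
    ((QuotientGroup.mk' (Subgroup.center S₀)).comp (f.comp (commutator A).subtype)).comp e.symm.toMonoidHom
  have hπ : Function.Surjective π := by
    intro y
    obtain ⟨s, rfl⟩ := QuotientGroup.mk'_surjective _ y
    have h5 : s ∈ (commutator A).map f := by rw [hmap]; trivial
    obtain ⟨d, hd, rfl⟩ := h5
    refine ⟨e ⟨d, hd⟩, ?_⟩
    show QuotientGroup.mk' (Subgroup.center S₀) (f ((e.symm (e ⟨d, hd⟩) : ↥(commutator A)) : A)) = _
    rw [e.symm_apply_apply]
  have hker : π.ker ≤ Subgroup.center M := by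
    intro m hm
    rw [MonoidHom.mem_ker] at hm
    have h5 : f ((e.symm m : ↥(commutator A)) : A) ∈ Subgroup.center S₀ := (QuotientGroup.eq_one_iff _).1 hm
    rw [Subgroup.mem_center_iff]
    intro n
    apply e.symm.injective
    rw [map_mul, map_mul]
    exact Subtype.ext (hk _ h5 _)
  have hnM : ∀ i, x i ∈ Subgroup.normalizer (M : Set G) := by
    intro i
    apply mem_normalizer_of_pow (hx.prime i).pos (hx.pow i)
    have h5 : M.map (MulAut.conj (x i)).toMonoidHom ≤ M := by
      rw [hM, Subgroup.map_map, commutator_def, Subgroup.map_commutator, Subgroup.map_commutator]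
      have h6 : (⊤ : Subgroup A).map ((MulAut.conj (x i)).toMonoidHom.comp E) ≤ (⊤ : Subgroup A).map E := by
        rintro _ ⟨t, -, rfl⟩
        obtain ⟨t', ht'⟩ := hnorm i t
        exact ⟨t', trivial, ht'.symm⟩
      exact Subgroup.commutator_mono h6 h6
    intro m hm
    exact h5 ⟨m, hm, rfl⟩
  rcases mrule_IH (S := N) hIH (MulEquiv.refl N) hMN hne hMp π hπ hker h1 h2 h3 h4 hx hcov hnM ω with h5 | ⟨j, h5, h6⟩
  · exact Or.inl fun t ht => h5 ⟨t, ht, rfl⟩
  · exact Or.inr ⟨j, fun t ht => h5 _ ⟨t, ht, rfl⟩, h6⟩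

end abs

section main

open Cfsg.Agent.H93.RC
open scoped commutatorElement

variable {F V G Ω ι : Type} [Field F] [AddCommGroup V] [Module F V] [Group G] [MulAction G Ω]
  {Q : QuadraticForm F V} {N : Subgroup G} {ρ : ↥(E Q) →* G} {a b : V}

/-- the embedding of the stabiliser of `a` -/
def emb (ρ : ↥(E Q) →* G) (a : V) : ↥(fixE Q a) →* G := ρ.comp (fixE Q a).subtype

theorem emb_apply (t : ↥(fixE Q a)) : emb ρ a t = ρ t.1 := rfl

theorem emb_injective (hG : Good Q) (hρ : Rep Q N ρ) (ha : a ≠ 0) : Function.Injective (emb ρ a) := by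
  rw [injective_iff_map_eq_one]
  intro t ht
  have h1 : t.1 ∈ Subgroup.center ↥(E Q) := by rw [← hρ.ker, MonoidHom.mem_ker]; exact ht
  obtain ⟨c, -, h⟩ := H188.RC.scal_of_center hG h1
  have h2 := h a
  rw [mem_fixE.1 t.2] at h2
  have hc : c = 1 := by
    have h3 : (1 - c) • a = 0 := by rw [sub_smul, one_smul, ← h2, sub_self]
    rcases smul_eq_zero.1 h3 with h4 | h4
    · exact (sub_eq_zero.1 h4).symm
    · exact absurd h4 ha
  apply Subtype.ext
  apply Subtype.ext
  apply LinearEquiv.ext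
  intro v
  rw [h v, hc, one_smul]
  rfl

/-- conjugation by a lift fixing the line of `a` -/
theorem conjE_mem {M : Gam Q} (hlin : IsLin M) {c : F} (hc : c ≠ 0) (hM : M.1 a = c • a) {t : ↥(E Q)}
    (ht : t ∈ fixE Q a) : conjE Q M t ∈ fixE Q a := by
  rw [mem_fixE, coe_conjE]
  have h1 : a = M.1 (c⁻¹ • a) := by rw [hlin, hM, smul_smul, inv_mul_cancel₀ hc, one_smul]
  conv_lhs => rw [h1]
  rw [conjLin_apply', map_smul, mem_fixE.1 ht, ← h1]

/-- a linear semisimilitude preserving the line of `a`: a multiple of an isometry fixing `a` -/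
theorem exists_iso {M : Gam Q} (hlin : IsLin M) (ha : Q a ≠ 0) {c : F} (hc : c ≠ 0) (hM : M.1 a = c • a) :
    ∃ X : ↥(stO Q a), ∀ v, M.1 v = c • X.1 v := by
  have ha0 : a ≠ 0 := by rintro rfl; rw [QuadraticMap.map_zero] at ha; exact ha rfl
  obtain ⟨σ, k, hS⟩ := M.2
  have hσ : ∀ t : F, σ t = t := by
    intro t
    have h1 := hS.smul t a
    rw [hlin] at h1
    have h2 : (σ t - t) • (M.1 a) = 0 := by rw [sub_smul, ← h1, sub_self]
    rcases smul_eq_zero.1 h2 with h3 | h3
    · exact sub_eq_zero.1 h3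
    · rw [hM, smul_eq_zero] at h3
      rcases h3 with h3 | h3
      · exact absurd h3 hc
      · exact absurd h3 ha0
  have hk : k = c * c := by
    have h1 := hS.form a
    rw [hM, QuadraticMap.map_smul, hσ, smul_eq_mul] at h1
    exact (mul_right_cancel₀ ha h1).symm
  let X : V ≃ₗ[F] V := LinearEquiv.ofBijective
    { toFun := fun v => c⁻¹ • M.1 v
      map_add' := fun u v => by rw [hS.add, smul_add]
      map_smul' := fun t v => by rw [hlin, RingHom.id_apply, smul_comm] } (by
      constructor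
      · intro u v h
        have h1 : c⁻¹ • M.1 u = c⁻¹ • M.1 v := h
        have h2 := congrArg (fun z => c • z) h1
        simp only [smul_smul, mul_inv_cancel₀ hc, one_smul] at h2
        exact M.1.injective h2
      · intro v
        obtain ⟨u, hu⟩ := M.1.surjective (c • v)
        refine ⟨u, ?_⟩
        show c⁻¹ • M.1 u = v
        rw [hu, smul_smul, inv_mul_cancel₀ hc, one_smul])
  have hX : ∀ v, X v = c⁻¹ • M.1 v := fun v => rfl
  refine ⟨⟨X, ?_, ?_⟩, ?_⟩
  · intro v
    rw [hX, QuadraticMap.map_smul, hS.form, hσ, hk, smul_eq_mul]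
    field_simp
  · rw [hX, hM, smul_smul, inv_mul_cancel₀ hc, one_smul]
  · intro v
    show M.1 v = c • X v
    rw [hX, smul_smul, mul_inv_cancel₀ hc, one_smul]

section fin

variable [Finite F] [FiniteDimensional F V]

/-- a member centralising the derived subgroup of the stabiliser is trivial or a reflection -/
theorem of_cent (h : Pr Q a b) (hG : Good Q) (hρ : Rep Q N ρ) (hd : 8 ≤ Module.finrank F V) {x : G} {M : Gam Q}
    (hl : Lf ρ x M) (hlin : IsLin M) {c : F} (hc : c ≠ 0) (hM : M.1 a = c • a)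
    (hcent : ∀ t ∈ commutator ↥(fixE Q a), x * emb ρ a t = emb ρ a t * x) :
    ∃ d : F, (d = 0 ∨ d * Q a = 1) ∧ ∀ v, M.1 v = c • (v + (d * polar Q a v) • a) := by
  have ha0 : a ≠ 0 := by rintro rfl; exact h.qa (QuadraticMap.map_zero Q)
  obtain ⟨X, hX⟩ := exists_iso hlin h.qa hc hM
  have h6 : 6 ≤ Module.finrank F (W0 Q a b) := by
    have := finrank_W0 (Q := Q) (a := a) (b := b)
    omega
  have hcomm : ∀ t ∈ commutator ↥(fixE Q a), X * inc Q a t = inc Q a t * X := by
    intro t ht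
    have h1 : conjE Q M t.1 = t.1 := by
      have h2 : (⟨conjE Q M t.1, conjE_mem hlin hc hM t.2⟩ : ↥(fixE Q a)) = t := by
        apply emb_injective hG hρ ha0
        rw [emb_apply, emb_apply, ← hl, mul_inv_eq_iff_eq_mul]
        exact hcent t ht
      exact congrArg Subtype.val h2
    apply Subtype.ext
    apply LinearEquiv.ext
    intro v
    have h3 : (t.1.1 : V ≃ₗ[F] V) (M.1 v) = M.1 (t.1.1 v) := by
      have h4 := conjLin_apply' M t.1.1 v
      rw [← coe_conjE, h1] at h4
      exact h4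
    rw [hX, hX, map_smul] at h3
    exact (smul_right_injective V hc h3).symm
  have h1 := (perf_of (psi_surjective h) (fun x hx => psi_center h (by rw [hx]; exact Subgroup.one_mem _))
    (H520.RC.perfect_Sp (nalt h) (Or.inl h6))).1
  have h2 : phi h X ∈ Subgroup.center (H520.RC.Sp (B0 Q a b)) := by
    rw [Subgroup.mem_center_iff]
    intro s
    have h3 : s ∈ (commutator ↥(fixE Q a)).map (psi h) := by rw [h1]; trivial
    obtain ⟨t, ht, rfl⟩ := h3
    show phi h (inc Q a t) * phi h X = phi h X * phi h (inc Q a t)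
    rw [← map_mul, ← map_mul, hcomm t ht]
  obtain ⟨d, hd, hd'⟩ := of_phi_eq_one h (eq_one_of_center h h2)
  exact ⟨d, hd, fun v => by rw [hX, hd']⟩

/-- the image of the stabiliser is proper -/
theorem range_ne (h : Pr Q a b) (hG : Good Q) (hρ : Rep Q N ρ) (hd : 7 ≤ Module.finrank F V) :
    (commutator ↥(fixE Q a)).map (emb ρ a) ≠ N := by
  intro hN
  have ha0 : a ≠ 0 := by rintro rfl; exact h.qa (QuadraticMap.map_zero Q)
  obtain ⟨e, -, -, -, -, he, -, -, he0, -, hae, -⟩ := exists_vec h hd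
  have h1 : Q a = Q (a + e) := by rw [Q_add, he, hae, add_zero, add_zero]
  have h2 : a + e ≠ 0 := by
    intro h3
    rw [h3, QuadraticMap.map_zero] at h1
    exact h.qa h1
  obtain ⟨g, hg, hga⟩ := hG.trans_norm ha0 h2 h1
  have h3 : ρ ⟨g, hg⟩ ∈ (commutator ↥(fixE Q a)).map (emb ρ a) := by
    rw [hN, ← hρ.range]
    exact ⟨_, rfl⟩
  obtain ⟨t, -, ht⟩ := h3
  have h4 : (⟨g, hg⟩ : ↥(E Q)) * t.1⁻¹ ∈ Subgroup.center ↥(E Q) := by
    rw [← hρ.ker, MonoidHom.mem_ker, map_mul, map_inv, ← ht, emb_apply, mul_inv_cancel]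
  obtain ⟨c, -, hc⟩ := H188.RC.scal_of_center hG h4
  have h5 := hc a
  have h6 : (((⟨g, hg⟩ : ↥(E Q)) * t.1⁻¹ : ↥(E Q)) : V ≃ₗ[F] V) a = a + e := by
    show g ((t.1.1 : V ≃ₗ[F] V).symm a) = a + e
    have h7 : (t.1.1 : V ≃ₗ[F] V).symm a = a := by rw [LinearEquiv.symm_apply_eq, mem_fixE.1 t.2]
    rw [h7, hga]
  rw [h6] at h5
  have h7 : e = (c - 1) • a := by rw [sub_smul, one_smul, ← h5]; abel
  rw [h7, QuadraticMap.map_smul, smul_eq_mul] at he
  rcases mul_eq_zero.1 he with h8 | h8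
  · rw [mul_self_eq_zero] at h8
    rw [h7, h8, zero_smul] at he0
    exact he0 rfl
  · exact h.qa h8

omit [Finite F] [FiniteDimensional F V] in
/-- a product of siegel elements lying in the derived subgroup -/
theorem sg_mem_commutator (h : Pr Q a b) {e g f f' : V} (he : Q e = 0) (hg : Q g = 0) (heg : polar Q e g = 0)
    (hae : polar Q a e = 0) (hag : polar Q a g = 0) (haf : polar Q a f = 0) (haf' : polar Q a f' = 0)
    (hef : polar Q e f = 0) (hef' : polar Q e f' = 0) (hgf : polar Q g f = 0) (hgf' : polar Q g f' = 0)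
    (hff : polar Q f' f = 1) :
    (⟨AutOrth.SemiSim.sg Q e g he heg, sg_mem_fixE he heg hae hag⟩ : ↥(fixE Q a)) ∈ commutator ↥(fixE Q a) := by
  have hneg : ∀ v : V, -v = v := by
    intro v
    rw [neg_eq_iff_add_eq_zero, ← two_smul F, h.two, zero_smul]
  set H : ↥(fixE Q a) := ⟨AutOrth.SemiSim.sg Q g f' hg hgf', sg_mem_fixE hg hgf' hag haf'⟩ with hH
  set K : ↥(fixE Q a) := ⟨AutOrth.SemiSim.sg Q e f he hef, sg_mem_fixE he hef hae haf⟩ with hK
  have h1 : (AutOrth.SemiSim.sg Q g f' hg hgf' : V ≃ₗ[F] V) e = e := by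
    rw [AutOrth.SemiSim.sg_apply, polar_comm Q g e, polar_comm Q f' e, heg, hef']
    simp
  have h2 : (AutOrth.SemiSim.sg Q g f' hg hgf' : V ≃ₗ[F] V) f = f + g := by
    rw [AutOrth.SemiSim.sg_apply, hgf, hff, zero_smul, one_smul, mul_zero, zero_smul, add_zero, sub_zero,
      sub_eq_add_neg, hneg]
  have h3 : (⟨AutOrth.SemiSim.sg Q e g he heg, sg_mem_fixE he heg hae hag⟩ : ↥(fixE Q a)) = ⁅H, K⁆ := by
    apply Subtype.ext
    show AutOrth.SemiSim.sg Q e g he heg = AutOrth.SemiSim.sg Q g f' hg hgf' * AutOrth.SemiSim.sg Q e f he hef *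
      (AutOrth.SemiSim.sg Q g f' hg hgf')⁻¹ * (AutOrth.SemiSim.sg Q e f he hef)⁻¹
    have h4 : polar Q e (f + g) = 0 := by rw [polar_add_right, hef, heg, add_zero]
    have h5 : polar Q e (-f) = 0 := by rw [hneg]; exact hef
    have h6 : polar Q e (f + g + -f) = 0 := by rw [polar_add_right, h4, h5, add_zero]
    rw [AutOrth.SemiSim.conj_sg _ he hef (by rw [h1]; exact he) (by rw [h1, h2]; exact h4),
      AutOrth.SemiSim.sg_inv he hef h5,
      AutOrth.SemiSim.sg_congr _ _ he h4 h1 h2, AutOrth.SemiSim.sg_mul he h4 h5 h6]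
    exact AutOrth.SemiSim.sg_congr _ _ _ _ rfl (by abel)
  rw [h3]
  exact Subgroup.commutator_mem_commutator (Subgroup.mem_top _) (Subgroup.mem_top _)

omit [Finite F] [FiniteDimensional F V] in
/-- the last step: `{t, x}`, `t` a long root element, `x` the reflection, is not a cover -/
theorem not_cov_two [Nonempty Ω] (h : Pr Q a b) (hG : Good Q) (hE : Env G Ω N) (hρ : Rep Q N ρ) {x : G} {M : Gam Q}
    (hl : Lf ρ x M) {c : F} (hM : ∀ v, M.1 v = c • refl Q a h.qa v)
    {e g b' : V} (he : Q e = 0) (hg : Q g = 0) (heg : polar Q e g = 0) (he0 : e ≠ 0) (hind : ∀ k : F, g ≠ k • e)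
    (hae : polar Q a e = 0) (hag : polar Q a g = 0) (heb : polar Q e b' = 0) (hgb : polar Q g b' = 0)
    (hab : polar Q a b' = 1)
    (hcov : ∀ ω : Ω, ρ (AutOrth.SemiSim.sg Q e g he heg) • ω = ω ∨ x • ω = ω) : False := by
  have hneg : ∀ v : V, -v = v := by
    intro v
    rw [neg_eq_iff_add_eq_zero, ← two_smul F, h.two, zero_smul]
  -- conjugation by `x`
  have hxc : ∀ t : ↥(E Q), ∀ (t' : ↥(E Q)), (t' : V ≃ₗ[F] V) = refl Q a h.qa * t.1 * (refl Q a h.qa)⁻¹ →
      x * ρ t * x⁻¹ = ρ t' := by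
    intro t t' ht'
    rw [hl t]
    congr 1
    apply Subtype.ext
    rw [ht', coe_conjE]
    apply LinearEquiv.ext
    intro v
    obtain ⟨v, rfl⟩ := M.1.surjective v
    rw [conjLin_apply', hM, hM, map_smul]
    show c • refl Q a h.qa (t.1 v) = c • refl Q a h.qa (t.1 ((refl Q a h.qa).symm (refl Q a h.qa v)))
    rw [LinearEquiv.symm_apply_apply]
  let U : Subgroup G := Subgroup.closure {z : G | ∃ w, ∃ h1 : polar Q e w = 0, ∃ h2 : polar Q g w = 0,
    z = ρ (AutOrth.SemiSim.sg Q e w he h1) ∨ z = ρ (AutOrth.SemiSim.sg Q g w hg h2)}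
  refine H380.RC.not_cov_one (U := U) hE hcov ?_ ?_ ?_
  · intro u hu
    have h1 : U ≤ Subgroup.centralizer {ρ (AutOrth.SemiSim.sg Q e g he heg)} := by
      rw [Subgroup.closure_le]
      rintro _ ⟨w, hew, hgw, rfl | rfl⟩
      · rw [SetLike.mem_coe, Subgroup.mem_centralizer_singleton_iff, ← map_mul, ← map_mul]
        congr 1
        rw [AutOrth.SemiSim.sg_mul he hew heg (by rw [polar_add_right, hew, heg, add_zero]),
          AutOrth.SemiSim.sg_mul he heg hew (by rw [polar_add_right, hew, heg, add_zero])]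
        exact AutOrth.SemiSim.sg_congr _ _ _ _ rfl (add_comm _ _)
      · rw [SetLike.mem_coe, Subgroup.mem_centralizer_singleton_iff, ← map_mul, ← map_mul]
        congr 1
        have h3 : (AutOrth.SemiSim.sg Q g w hg hgw : V ≃ₗ[F] V) e = e := by
          rw [AutOrth.SemiSim.sg_apply, polar_comm Q g e, polar_comm Q w e, heg, hew]
          simp
        have h4 : (AutOrth.SemiSim.sg Q g w hg hgw : V ≃ₗ[F] V) g = g := AutOrth.SemiSim.sg_self hg hgw
        have h5 := AutOrth.SemiSim.conj_sg (AutOrth.SemiSim.sg Q g w hg hgw) he heg (by rw [h3]; exact he)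
          (by rw [h3, h4]; exact heg)
        rw [AutOrth.SemiSim.sg_congr _ _ he heg h3 h4, mul_inv_eq_iff_eq_mul] at h5
        exact h5
    exact Subgroup.mem_centralizer_singleton_iff.1 (h1 hu)
  · intro h1
    have h2 : AutOrth.SemiSim.sg Q e g he heg ∈ Subgroup.center ↥(E Q) := by
      rw [← hρ.ker, MonoidHom.mem_ker]; exact h1
    obtain ⟨k, -, hk⟩ := H188.RC.scal_of_center hG h2
    -- a vector not orthogonal to `e`
    obtain ⟨y, hy⟩ := hG.nondeg.exists_polar_ne he0
    have h3 := hk e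
    rw [AutOrth.SemiSim.sg_self] at h3
    have hk1 : k = 1 := by
      have h4 : (1 - k) • e = 0 := by rw [sub_smul, one_smul, ← h3, sub_self]
      rcases smul_eq_zero.1 h4 with h5 | h5
      · exact (sub_eq_zero.1 h5).symm
      · exact absurd h5 he0
    have h5 := hk y
    rw [hk1, one_smul, AutOrth.SemiSim.sg_apply, hg, zero_mul, zero_smul, sub_zero] at h5
    have h6 : polar Q e y • g = polar Q g y • e := by
      rw [← sub_eq_zero]
      have h7 : y + polar Q e y • g - polar Q g y • e - y = 0 := by rw [h5, sub_self]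
      rw [← h7]
      abel
    apply hind ((polar Q e y)⁻¹ * polar Q g y)
    rw [mul_smul, ← h6, smul_smul, inv_mul_cancel₀ hy, one_smul]
  · -- `sg e (κ a) ∈ [U, x]`
    have hraw : ∀ w, refl Q a h.qa w = w - ((Q a)⁻¹ * polar Q a w) • a := fun w => refl_apply h.qa w
    have hb1 : polar Q e (-b') = 0 := by rw [hneg]; exact heb
    have hea : polar Q e a = 0 := by rw [polar_comm]; exact hae
    have hka : polar Q e ((Q a)⁻¹ • a) = 0 := by rw [polar_smul_right, hea, smul_zero]
    have hre : refl Q a h.qa e = e := by rw [hraw, hae, mul_zero, zero_smul, sub_zero]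
    have hrb : refl Q a h.qa (-b') = -b' + (Q a)⁻¹ • a := by
      rw [hraw, polar_neg_right, hab]
      simp
    have hrb0 : polar Q e (-b' + (Q a)⁻¹ • a) = 0 := by rw [polar_add_right, hb1, hka, add_zero]
    have h1 : ρ (AutOrth.SemiSim.sg Q e ((Q a)⁻¹ • a) he hka) ∈ H380.RC.cmm U x := by
      have h2 := H380.RC.mem_cmm (U := U) (x := x) (u := ρ (AutOrth.SemiSim.sg Q e b' he heb))
        (Subgroup.subset_closure ⟨b', heb, hgb, Or.inl rfl⟩)
      have h3 : x * (ρ (AutOrth.SemiSim.sg Q e b' he heb))⁻¹ * x⁻¹ =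
          ρ (AutOrth.SemiSim.sg Q e (-b' + (Q a)⁻¹ • a) he hrb0) := by
        rw [← map_inv ρ, AutOrth.SemiSim.sg_inv he heb hb1]
        apply hxc
        refine ((siegel_conj (refl_mem_O h.qa) he hb1 (by rw [hre]; exact he) (by rw [hre, hrb]; exact hrb0)).trans
          ?_).symm
        exact siegel_congr _ _ he hrb0 hre hrb
      have h4 : ρ (AutOrth.SemiSim.sg Q e b' he heb) * x * (ρ (AutOrth.SemiSim.sg Q e b' he heb))⁻¹ * x⁻¹ =
          ρ (AutOrth.SemiSim.sg Q e ((Q a)⁻¹ • a) he hka) := by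
        rw [mul_assoc, mul_assoc, ← mul_assoc x, h3, ← map_mul ρ, AutOrth.SemiSim.sg_mul he heb hrb0
          (by rw [polar_add_right, heb, hrb0, add_zero])]
        congr 1
        exact AutOrth.SemiSim.sg_congr _ _ _ _ rfl (by abel)
      rw [h4] at h2
      exact h2
    -- commutator with `sg g b''`
    have hgb2 : polar Q g (Q a • b') = 0 := by rw [polar_smul_right, hgb, smul_zero]
    have heb2 : polar Q e (Q a • b') = 0 := by rw [polar_smul_right, heb, smul_zero]
    have h2 := H380.RC.cmm_comm (U := U) (x := x) (v := ρ (AutOrth.SemiSim.sg Q g (Q a • b') hg hgb2))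
      (Subgroup.subset_closure ⟨Q a • b', heb2, hgb2, Or.inr rfl⟩) h1
    have h3 : (AutOrth.SemiSim.sg Q g (Q a • b') hg hgb2 : V ≃ₗ[F] V) e = e := by
      rw [AutOrth.SemiSim.sg_apply, polar_comm Q g e, polar_comm Q _ e, heg, heb2]
      simp
    have h4 : (AutOrth.SemiSim.sg Q g (Q a • b') hg hgb2 : V ≃ₗ[F] V) ((Q a)⁻¹ • a) = (Q a)⁻¹ • a + g := by
      rw [AutOrth.SemiSim.sg_apply, polar_smul_right, polar_comm Q g a, hag, smul_zero, zero_smul, mul_zero,
        zero_smul, add_zero, sub_zero, polar_smul_left, polar_smul_right, polar_comm Q b' a, hab, smul_eq_mul,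
        smul_eq_mul, mul_one, mul_inv_cancel₀ h.qa, one_smul, sub_eq_add_neg, hneg]
    have h5 : polar Q e ((Q a)⁻¹ • a + g) = 0 := by rw [polar_add_right, hka, heg, add_zero]
    have h6 : polar Q e (-((Q a)⁻¹ • a)) = 0 := by rw [hneg]; exact hka
    have h7 : ρ (AutOrth.SemiSim.sg Q g (Q a • b') hg hgb2) * ρ (AutOrth.SemiSim.sg Q e ((Q a)⁻¹ • a) he hka) *
        (ρ (AutOrth.SemiSim.sg Q g (Q a • b') hg hgb2))⁻¹ * (ρ (AutOrth.SemiSim.sg Q e ((Q a)⁻¹ • a) he hka))⁻¹ =
        ρ (AutOrth.SemiSim.sg Q e g he heg) := by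
      rw [← map_inv ρ, ← map_inv ρ, ← map_mul ρ, ← map_mul ρ, ← map_mul ρ]
      congr 1
      rw [AutOrth.SemiSim.conj_sg _ he hka (by rw [h3]; exact he) (by rw [h3, h4]; exact h5),
        AutOrth.SemiSim.sg_inv he hka h6, AutOrth.SemiSim.sg_congr _ _ he h5 h3 h4,
        AutOrth.SemiSim.sg_mul he h5 h6 (by rw [polar_add_right, h5, h6, add_zero])]
      exact AutOrth.SemiSim.sg_congr _ _ _ _ rfl (by abel)
    rw [h7] at h2
    exact h2

/-- **Box REFL**, general form: a member of the cover is a multiple of the reflection `r_a`, all the others are linear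
and preserve the line of `a`. -/
theorem box_refl' [Finite G] [Nonempty Ω] [Finite ι] (h2 : (2 : F) = 0) (hG : Good Q)
    (h8 : 8 ≤ Module.finrank F V) (hE : Env G Ω N) (hρ : Rep Q N ρ) (hIH : IH (Nat.card N))
    {x : ι → G} {M : ι → Gam Q} {r : ι → ℕ} (hx : PF x r) (hcov : Cov Ω x)
    (hl : ∀ i, Lf ρ (x i) (M i)) (hlin : ∀ i, IsLin (M i)) (ha : Q a ≠ 0) {k : ι → F} (hk : ∀ i, k i ≠ 0)
    (hfix : ∀ i, (M i).1 a = k i • a) (i₀ : ι) (hu : ∀ v, (M i₀).1 v = k i₀ • refl Q a ha v) : False := by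
  have ha0 : a ≠ 0 := by rintro rfl; exact ha (QuadraticMap.map_zero Q)
  obtain ⟨b, hb⟩ := hG.nondeg.exists_polar_eq ha0 1
  have h : Pr Q a b := ⟨h2, hG.nondeg, ha, hb⟩
  have h6 : 6 ≤ Module.finrank F (W0 Q a b) := by
    have := finrank_W0 (Q := Q) (a := a) (b := b)
    omega
  obtain ⟨e, g, f, f', b', he, hg, heg, he0, hind, hae, hag, haf, haf', hef, hef', hgf, hgf', hff, heb, hgb, hab⟩ :=
    exists_vec h (by omega)
  -- elements whose lift has square a scalar
  have hr2 : ∀ i, (∀ v, (M i).1 ((M i).1 v) = (k i * k i) • v) → r i = 2 := by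
    intro i hi
    have h3 : x i ^ 2 = 1 := by
      rw [((hl i).pow 2).eq_one_iff hG hE hρ]
      refine ⟨k i * k i, mul_ne_zero (hk i) (hk i), fun v => ?_⟩
      rw [← hi v]
      rfl
    have h4 : orderOf (x i) = r i := by
      have := Fact.mk (hx.prime i)
      exact orderOf_eq_prime (hx.pow i) (hx.ne i)
    have h5 : r i ∣ 2 := by rw [← h4]; exact orderOf_dvd_of_pow_eq_one h3
    exact (Nat.prime_dvd_prime_iff_eq (hx.prime i) Nat.prime_two).1 h5
  have hdd : ∀ i, ∀ d : F, (d * Q a = 1) → (∀ v, (M i).1 v = k i • (v + (d * polar Q a v) • a)) → r i = 2 := by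
    intro i d hd hi
    apply hr2
    intro v
    rw [hi v, hlin, hi, smul_smul, polar_add_right, polar_smul_right, h.self, smul_zero, add_zero, add_assoc,
      ← add_smul, h.add_self, zero_smul, add_zero]
  have hi₀ : r i₀ = 2 := by
    refine hdd i₀ (Q a)⁻¹ (inv_mul_cancel₀ ha) fun v => ?_
    rw [hu v, refl_apply, sub_eq_add_neg, ← neg_smul]
    congr 4
    linear_combination -h.add_self ((Q a)⁻¹ * polar Q a v)
  have hfV : Finite V := Module.finite_of_finite F
  have hfS : Finite (H520.RC.Sp (B0 Q a b)) :=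
    Finite.of_injective (fun t : H520.RC.Sp (B0 Q a b) => fun v => t.1 v) fun s t hst =>
      Subtype.ext (LinearEquiv.ext fun v => congrFun hst v)
  have hmr := fun ω => mrule_abs (Ω := Ω) (S₀ := H520.RC.Sp (B0 Q a b)) hIH (emb_injective hG hρ ha0)
    (psi_surjective h)
    (fun x hx => psi_center h hx) (H520.RC.perfect_Sp (nalt h) (Or.inl h6)) (H520.RC.simple_Sp (nalt h) (Or.inl h6))
    (H520.RC.ncomm_Sp (nalt h) (Or.inl h6)) (H520.RC.cl_Sp (nalt h) (Or.inl h6))
    (H520.RC.not_exc_Sp (nalt h) (Or.inl h6))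
    (by
      rintro _ ⟨t, -, rfl⟩
      rw [← hρ.range]
      exact ⟨_, rfl⟩) (range_ne h hG hρ (by omega)) hx hcov
    (fun i t => ⟨⟨conjE Q (M i) t.1, conjE_mem (hlin i) (hk i) (hfix i) t.2⟩, hl i t.1⟩) ω
  refine not_cov_two h hG hE hρ (hl i₀) hu he hg heg he0 hind hae hag heb hgb hab fun ω => ?_
  rcases hmr ω with h3 | ⟨j, h3, h4⟩
  · left
    exact h3 _ (sg_mem_commutator h he hg heg hae hag haf haf' hef hef' hgf hgf' hff)
  · right
    obtain ⟨d, hd, hd'⟩ := of_cent h hG hρ h8 (hl j) (hlin j) (hk j) (hfix j) h3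
    rcases hd with hd | hd
    · exfalso
      apply hx.ne j
      rw [(hl j).eq_one_iff hG hE hρ]
      exact ⟨k j, hk j, fun v => by rw [hd' v, hd, zero_mul, zero_smul, add_zero]⟩
    · have h5 : j = i₀ := hx.inj (by rw [hdd j d hd hd', hi₀])
      rw [← h5]
      exact h4

omit [Finite F] [FiniteDimensional F V] in
/-- `N` has the order of `P Q` -/
theorem card_N (hρ : Rep Q N ρ) : Nat.card (P Q) = Nat.card N := by
  have h1 : Nonempty (P Q ≃* N) := by
    rw [← hρ.range]
    exact ⟨(QuotientGroup.quotientMulEquivOfEq hρ.ker.symm).trans (QuotientGroup.quotientKerEquivRange ρ)⟩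
  obtain ⟨e⟩ := h1
  exact Nat.card_congr e.toEquiv

end fin

end main

end Cfsg.Agent.H64.RC.Refl

namespace Cfsg.Agent.H64.RC

open QuadraticMap MulAction
open Cfsg.Agent.LieClassical.OrthCore Cfsg.Agent.LieClassical.OrthTrans
open Cfsg.Agent.LieClassical.OrthSimple Cfsg.Agent.ClassicalGeometry.OrthSemi
open Cfsg.Agent.ClassicalGeometry.OrthAut1 Cfsg.Agent.H106.RC Cfsg.Agent.H93.RC

variable {F V : Type} [Field F] [Finite F] [AddCommGroup V] [Module F V] [FiniteDimensional F V]
    {Q : QuadraticForm F V} {G Ω : Type} [Group G] [Finite G] [MulAction G Ω] [Nonempty Ω]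
    {N : Subgroup G} {ρ : ↥(E Q) →* G}

/-- BOX REFL (char 2, all n >= 8, all q): the involution is a reflection, all the others fix its centre.
(statement of helper578) -/
theorem box_refl_fix (hG : Good Q) (h8 : 8 ≤ Module.finrank F V) [CharP F 2]
    (hE : Env G Ω N) (hρ : Rep Q N ρ) (hIH : IH (Nat.card (P Q)))
    {ι : Type} [Finite ι] {x : ι → G} {M : ι → Gam Q} {r : ι → ℕ} (hx : PF x r) (hcov : Cov Ω x)
    (hl : ∀ i, Lf ρ (x i) (M i)) (hlin : ∀ i, IsLin (M i)) (_hO : ∀ i v, Q ((M i).1 v) = Q v)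
    (i₀ : ι) (a : V) (ha : Q a ≠ 0) (hu : ∀ v, (M i₀).1 v = v - ((Q a)⁻¹ * polar Q a v) • a)
    (hfix : ∀ i, (M i).1 a = a) : False := by
  rw [Refl.card_N hρ] at hIH
  refine Refl.box_refl' (CharTwo.two_eq_zero) hG h8 hE hρ hIH hx hcov hl hlin ha (k := fun _ => 1)
    (fun _ => one_ne_zero) (fun i => by rw [hfix, one_smul]) i₀ (fun v => ?_)
  rw [hu, one_smul, refl_apply]

/-- BOX REFL (`p = 2`): `u` is a reflection. No condition on the other (linear isometric) members.
(statement of helper93) -/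
theorem box_refl (hG : Good Q) (hE : Env G Ω N) (hρ : Rep Q N ρ) (hIH : IH (Nat.card (P Q)))
    [CharP F 2] {ι : Type} [Finite ι] {x : ι → G} {M : ι → Gam Q} {r : ι → ℕ}
    (hl : ∀ i, Lf ρ (x i) (M i)) (hx : PF x r) (hcov : Cov Ω x)
    (h8 : 8 ≤ Module.finrank F V) (_heven : Even (Module.finrank F V))
    (T : ι → V ≃ₗ[F] V) (hTO : ∀ i, T i ∈ O Q) (hTM : ∀ i v, (M i).1 v = T i v)
    (_hTr : ∀ i, T i ^ r i = 1) (hTc : ∀ i j, T i * T j = T j * T i)
    (i₀ : ι) (_hi₀ : r i₀ = 2) (a : V) (ha : Q a ≠ 0) (hu : T i₀ = refl Q a ha) : False := by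
  rw [Refl.card_N hρ] at hIH
  have h2 : (2 : F) = 0 := CharTwo.two_eq_zero
  have ha0 : a ≠ 0 := by rintro rfl; exact ha (QuadraticMap.map_zero Q)
  obtain ⟨b, hb⟩ := hG.nondeg.exists_polar_eq ha0 1
  have hfix : ∀ i, T i a = a := by
    intro i
    have h3 : T i (T i₀ b) = T i₀ (T i b) := by
      have := congrArg (fun t : V ≃ₗ[F] V => t b) (hTc i i₀)
      exact this
    rw [hu, refl_apply, refl_apply, hb, mul_one, map_sub, map_smul] at h3
    have h4 : (Q a)⁻¹ • T i a = ((Q a)⁻¹ * polar Q a (T i b)) • a := sub_right_injective h3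
    have h5 : T i a = polar Q a (T i b) • a := by
      have h6 := congrArg (fun v => Q a • v) h4
      simp only [smul_smul, mul_inv_cancel₀ ha, one_smul] at h6
      rw [h6, ← mul_assoc, mul_inv_cancel₀ ha, one_mul]
    have h6 := mem_O.1 (hTO i) a
    rw [h5, QuadraticMap.map_smul, smul_eq_mul] at h6
    set c := polar Q a (T i b)
    have h7 : c * c = 1 := by
      have h8 : (c * c - 1) * Q a = 0 := by linear_combination h6
      exact sub_eq_zero.1 ((mul_eq_zero.1 h8).resolve_right ha)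
    have h8 : (c - 1) * (c - 1) = 0 := by linear_combination h7 - c * h2 + h2
    rw [h5, sub_eq_zero.1 (mul_self_eq_zero.1 h8), one_smul]
  refine Refl.box_refl' h2 hG h8 hE hρ hIH hx hcov hl (fun i c v => ?_) ha (k := fun _ => 1)
    (fun _ => one_ne_zero) (fun i => by rw [hTM, hfix, one_smul]) i₀ (fun v => by rw [hTM, hu, one_smul])
  rw [hTM, hTM, map_smul]

end Cfsg.Agent.H64.RC
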